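import Cfsg.Agent.H48.DP1Spec

/-! S3275, chapter (1): slot `UW`. -/

set_option autoImplicit false
set_option maxHeartbeats 200000

namespace H16.DpUW

open Subgroup H48.DP

universe u

variable {G : Type*} [Group G]

theorem k_mul {g x y x' y' : G} (h1 : g * x * g⁻¹ = x') (h2 : g * y * g⁻¹ = y') :
    g * (x * y) * g⁻¹ = x' * y' := by rw [← h1, ← h2]; group

theorem k_inv {g x x' : G} (h1 : g * x * g⁻¹ = x') : g * x⁻¹ * g⁻¹ = x'⁻¹ := by rw [← h1]; group

theorem k_comp {g h x y z : G} (h1 : h * x * h⁻¹ = y) (h2 : g * y * g⁻¹ = z) :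
    (g * h) * x * (g * h)⁻¹ = z := by rw [← h2, ← h1]; group

theorem k_tr (y : G) {g x z x' z' : G} (h : g * x * g⁻¹ = z) (h1 : y * x * y⁻¹ = x')
    (h2 : y * z * y⁻¹ = z') : (y * g * y⁻¹) * x' * (y * g * y⁻¹)⁻¹ = z' := by
  rw [← h1, ← h2, ← h]; group

theorem k_of {g x : G} (h : Commute g x) : g * x * g⁻¹ = x := by rw [h.eq]; group

theorem of_k {g x : G} (h : g * x * g⁻¹ = x) : Commute g x := mul_inv_eq_iff_eq_mul.1 h

theorem k_symm {g x y : G} (h : g * x * g⁻¹ = y) : g⁻¹ * y * g⁻¹⁻¹ = x := by rw [← h]; group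

theorem inv_of {g : G} (h : g * g = 1) : g⁻¹ = g := inv_eq_of_mul_eq_one_right h

theorem pair_nf {a b : G} (ab : a * b = b * a) {l : G} (h : l ∈ closure ({a, b} : Set G)) :
    ∃ i j : ℤ, l = a ^ i * b ^ j := by
  have c : Commute a b := ab
  induction h using closure_induction with
  | mem x hx =>
    rcases hx with rfl | rfl
    · exact ⟨1, 0, by simp⟩
    · exact ⟨0, 1, by simp⟩
  | one => exact ⟨0, 0, by simp⟩
  | mul x y _ _ hx hy =>
    obtain ⟨i, j, rfl⟩ := hx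
    obtain ⟨k, l, rfl⟩ := hy
    refine ⟨i + k, j + l, ?_⟩
    rw [zpow_add, zpow_add, (c.zpow_zpow k j).symm.mul_mul_mul_comm]
  | inv x _ hx =>
    obtain ⟨i, j, rfl⟩ := hx
    exact ⟨-i, -j, by rw [mul_inv_rev, ← zpow_neg, ← zpow_neg, (c.zpow_zpow _ _).eq]⟩

section

variable {L : Subgroup G} {a b s x y t e : G}

theorem sb (h : UM0 L a b s x y) : s * b * s⁻¹ = a := by
  have := k_symm h.sa
  rwa [inv_of h.s2] at this

theorem cH (h : UM0 L a b s x y) {l : G} (hl : l ∈ L) (h1 : Commute l (a ^ 2))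
    (h2 : Commute l s) : ∃ i : ℤ, l = (a * b) ^ i := by
  have c : Commute a b := h.ab
  have h3 : Commute l (b ^ 2) := by
    rw [← h.sa, conj_pow]; exact (h2.mul_right h1).mul_right h2.inv_right
  obtain ⟨i, j, rfl⟩ := pair_nf h.ab (h.cV l hl h1 h3)
  have h4 : s * (a ^ i * b ^ j) * s⁻¹ = b ^ i * a ^ j :=
    k_mul (by rw [← conj_zpow, h.sa]) (by rw [← conj_zpow, sb h])
  rw [k_of h2.symm] at h4
  have h5 : a ^ (i - j) * b ^ (j - i) = 1 := by
    rw [zpow_sub, zpow_sub]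
    calc a ^ i * (a ^ j)⁻¹ * (b ^ j * (b ^ i)⁻¹)
        = (a ^ j)⁻¹ * (a ^ i * b ^ j) * (b ^ i)⁻¹ := by group
      _ = 1 := by rw [h4, ← (c.zpow_zpow j i).eq]; group
  obtain ⟨-, m, hm⟩ := h.ind _ _ h5
  refine ⟨i, ?_⟩
  rw [c.mul_zpow, show j = i + 4 * m by omega, zpow_add, zpow_mul]
  rw [show b ^ (4 : ℤ) = 1 by exact_mod_cast h.b4]
  simp

theorem tL (h : US L a b s x y t t) {l : G} (hl : l ∈ L) : Commute l t :=
  mem_centralizer_iff.1 h.rc l hl

theorem tt (h : US L a b s x y t t) : t * t = 1 := by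
  rw [← pow_two, ← h.t2, pow_orderOf_eq_one]

theorem ct' (h : US L a b s x y t t) {g : G} (hg : Commute g t) :
    g ∈ L ∨ ∃ l ∈ L, g = l * t := by
  obtain ⟨l, hl, _, ⟨i, rfl⟩, rfl⟩ := h.ct g hg
  have h2 : t ^ (2 : ℤ) = 1 := by rw [zpow_two, tt h]
  rcases Int.even_or_odd' i with ⟨m, rfl | rfl⟩
  · left; simpa [zpow_mul, h2] using hl
  · right; exact ⟨l, hl, by simp [zpow_add, zpow_mul, h2]⟩

end

theorem jobUW : JobUW.{u} := by
  intro G _ _ L a b s x y t e h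
  have c : Commute a b := h.ab
  have ta : Commute a t := tL h.toUS h.aL
  have tb : Commute b t := tL h.toUS h.bL
  have ts : Commute s t := tL h.toUS h.sL
  have ty : Commute y t := tL h.toUS h.yL
  have si := inv_of h.s2
  have ei := inv_of h.e2
  have sb' := sb h.toUM0
  have a22 : a ^ 2 * a ^ 2 = 1 := by rw [← pow_add]; exact h.a4
  have b22 : b ^ 2 * b ^ 2 = 1 := by rw [← pow_add]; exact h.b4
  have zd : a ^ 2 * b ^ 2 = (a * b) ^ 2 := (c.mul_pow 2).symm
  have z2 : a ^ 2 * b ^ 2 * (a ^ 2 * b ^ 2) = 1 := by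
    rw [(c.pow_pow 2 2).symm.mul_mul_mul_comm, a22, b22, one_mul]
  have ab4 : (a * b) ^ 4 = 1 := by rw [c.mul_pow, h.a4, h.b4, one_mul]
  have y3 : y * (s * a⁻¹ * b) * y⁻¹ = a ^ 2 := by
    have := k_comp (k_comp h.y1 h.y2) (rfl : y * (s * a⁻¹ * b) * y⁻¹ = _)
    rw [← this, show y * (y * y) = 1 by rw [← h.y3, pow_three]]; group
  have sab : Commute s (a * b) := of_k (by rw [k_mul h.sa sb', h.ab])
  -- the element `u`
  obtain ⟨u, ud⟩ : ∃ u, u = e * (s * e * s⁻¹) := ⟨_, rfl⟩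
  have e'a : Commute (s * e * s⁻¹) a := of_k (k_tr s (k_of h.eb) sb' sb')
  have e'b : Commute (s * e * s⁻¹) b := of_k (k_tr s (k_of h.ea) h.sa h.sa)
  have e't : s * e * s⁻¹ * t * (s * e * s⁻¹)⁻¹ = t * b ^ 2 :=
    k_tr s h.et (k_of ts) (k_mul (k_of ts) (by rw [← conj_pow, h.sa]))
  have ua : Commute u a := ud ▸ h.ea.mul_left e'a
  have ub : Commute u b := ud ▸ h.eb.mul_left e'b
  have eu : Commute e u := ud ▸ (Commute.refl e).mul_right h.es
  have u2 : u * u = 1 := by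
    rw [ud, h.es.symm.mul_mul_mul_comm, h.e2, one_mul]
    calc s * e * s⁻¹ * (s * e * s⁻¹) = s * (e * e) * s⁻¹ := by group
      _ = 1 := by rw [h.e2]; group
  have ui := inv_of u2
  have es : e * s * e⁻¹ = s * u := by
    rw [ud, h.es.eq, ei, si, ← mul_assoc, ← mul_assoc, ← mul_assoc, h.s2, one_mul]
  have us : Commute u s := by
    refine (of_k ?_).symm
    rw [ud, k_mul (g := s) rfl (show s * (s * e * s⁻¹) * s⁻¹ = e by
      rw [si]; calc s * (s * e * s) * s = (s * s) * e * (s * s) := by group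
        _ = e := by rw [h.s2]; group), h.es.eq]
  have ut : u * t * u⁻¹ = t * (a ^ 2 * b ^ 2) := by
    rw [ud, k_comp e't (k_mul h.et (k_of (h.eb.pow_right 2))), mul_assoc]
  have up3 : Commute u (s * a⁻¹ * b) := (us.mul_right ua.inv_right).mul_right ub
  have yz : Commute y (a ^ 2 * b ^ 2) := zd ▸ h.yc.pow_right 2
  have yu : Commute y u := by
    have h1 : Commute (u * y * u⁻¹) t := by
      have := k_tr u⁻¹ (k_of (ty.mul_right yz)) (k_symm ut) (k_symm ut)
      rw [ui] at this ⊢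
      rw [ui] at this
      exact of_k this
    have h3 : (u * y * u⁻¹) ^ 3 = 1 := by rw [conj_pow, h.y3]; group
    have h2 : u * y * u⁻¹ ∈ L := by
      rcases ct' h.toUS h1 with h2 | ⟨l, hl, h2⟩
      · exact h2
      · rw [h2, (tL h.toUS hl).mul_pow, pow_succ t, pow_two t, tt h.toUS, one_mul] at h3
        rw [h2, ← inv_eq_of_mul_eq_one_right h3]
        exact mul_mem hl (inv_mem (pow_mem hl 3))
    obtain ⟨i, hi⟩ := cH h.toUM0 (mul_mem (inv_mem h.yL) h2)
      (of_k (k_comp (k_tr u h.y1 (k_of (ua.pow_right 2)) (k_of us)) (k_symm h.y1)))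
      (of_k (k_comp (k_tr u h.y2 (k_of us) (k_of up3)) (k_symm h.y2)))
    have h4 : u * y * u⁻¹ = y * (a * b) ^ i := by rw [← hi]; group
    rw [h4, (h.yc.zpow_right i).mul_pow, h.y3, one_mul] at h3
    have h5 : ((a * b) ^ i) ^ 4 = 1 := by
      rw [← zpow_natCast, ← zpow_mul, mul_comm, zpow_mul, zpow_natCast, ab4, one_zpow]
    rw [pow_succ, h3, one_mul] at h5
    rw [h5, mul_one] at h4
    exact (of_k h4).symm
  -- `f` and `g`
  obtain ⟨f, fd⟩ : ∃ f, f = y * e * y⁻¹ := ⟨_, rfl⟩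
  obtain ⟨g, gd⟩ : ∃ g, g = y * f * y⁻¹ := ⟨_, rfl⟩
  have ed : y * g * y⁻¹ = e := by
    rw [gd, fd]
    calc y * (y * (y * e * y⁻¹) * y⁻¹) * y⁻¹ = y ^ 3 * e * (y ^ 3)⁻¹ := by
          rw [pow_three]; simp only [mul_inv_rev, mul_assoc]
      _ = e := by rw [h.y3]; group
  have yu' := k_of yu
  have f2 : f * f = 1 := by rw [fd, ← k_mul (g := y) rfl rfl, h.e2]; group
  have g2 : g * g = 1 := by rw [gd, ← k_mul (g := y) rfl rfl, f2]; group
  have fi := inv_of f2
  have gi := inv_of g2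
  have ft : f * t * f⁻¹ = t * s := fd ▸ k_tr y h.et (k_of ty) (k_mul (k_of ty) h.y1)
  have gt : g * t * g⁻¹ = t * (s * a⁻¹ * b) := gd ▸ k_tr y ft (k_of ty) (k_mul (k_of ty) h.y2)
  have e1 : e * a ^ 2 * e⁻¹ = a ^ 2 := k_of (h.ea.pow_right 2)
  have e3 : e * (s * a⁻¹ * b) * e⁻¹ = s * a⁻¹ * b * u := by
    rw [k_mul (k_mul es (k_of h.ea.inv_right)) (k_of h.eb), mul_assoc s, ua.inv_right.eq,
      ← mul_assoc, mul_assoc _ u, ub.eq, ← mul_assoc]
  have f1 : f * a ^ 2 * f⁻¹ = a ^ 2 * u := fd ▸ k_tr y e3 y3 (k_mul y3 yu')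
  have fs : f * s * f⁻¹ = s := fd ▸ k_tr y e1 h.y1 h.y1
  have f3 : f * (s * a⁻¹ * b) * f⁻¹ = s * a⁻¹ * b * u := fd ▸ k_tr y es h.y2 (k_mul h.y2 yu')
  have g1 : g * a ^ 2 * g⁻¹ = a ^ 2 * u := gd ▸ k_tr y f3 y3 (k_mul y3 yu')
  have gs : g * s * g⁻¹ = s * u := gd ▸ k_tr y f1 h.y1 (k_mul h.y1 yu')
  have eab : e * (a * b) * e⁻¹ = a * b := k_of (h.ea.mul_right h.eb)
  have fab : f * (a * b) * f⁻¹ = a * b := fd ▸ k_tr y eab (k_of h.yc) (k_of h.yc)
  have gab : g * (a * b) * g⁻¹ = a * b := gd ▸ k_tr y fab (k_of h.yc) (k_of h.yc)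
  have eu' := k_of eu
  have fu : f * u * f⁻¹ = u := fd ▸ k_tr y eu' yu' yu'
  have uu : ∀ p : G, p * u * u = p := fun p => by rw [mul_assoc, u2, mul_one]
  -- the element `c = (e f)²`
  have n1 : e * f * a ^ 2 * (e * f)⁻¹ = a ^ 2 * u := k_comp f1 (k_mul e1 eu')
  have ns : e * f * s * (e * f)⁻¹ = s * u := k_comp fs es
  have nu : e * f * u * (e * f)⁻¹ = u := k_comp fu eu'
  have nab : e * f * (a * b) * (e * f)⁻¹ = a * b := k_comp fab eab
  have nt : e * f * t * (e * f)⁻¹ = t * a ^ 2 * (s * u) := k_comp ft (k_mul h.et es)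
  obtain ⟨q, qd⟩ : ∃ q, q = e * f * (e * f) := ⟨_, rfl⟩
  have q1 : q * a ^ 2 * q⁻¹ = a ^ 2 := by rw [qd, k_comp n1 (k_mul n1 nu), uu]
  have qs : q * s * q⁻¹ = s := by rw [qd, k_comp ns (k_mul ns nu), uu]
  have qab : Commute q (a * b) := of_k (qd ▸ k_comp nab nab)
  have qt : q * t * q⁻¹ = t * (a ^ 2 * b ^ 2) := by
    rw [qd, k_comp nt (k_mul (k_mul nt n1) (k_mul ns nu)), uu]
    calc t * a ^ 2 * (s * u) * (a ^ 2 * u) * s = t * a ^ 2 * s * (u * a ^ 2 * u⁻¹) * s := by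
          rw [ui]; group
      _ = t * (a ^ 2 * (s * a ^ 2 * s⁻¹)) := by rw [k_of (ua.pow_right 2), si]; group
      _ = _ := by rw [← conj_pow, h.sa]
  have eq : e * q * e⁻¹ = q⁻¹ := by
    rw [qd, mul_inv_rev, mul_inv_rev, ei, fi]
    calc e * (e * f * (e * f)) * e = (e * e) * (f * e * (f * e)) := by group
      _ = _ := by rw [h.e2, one_mul]
  have qc : q = u ∨ q = u * (a ^ 2 * b ^ 2) := by
    have h1 : Commute (q * u⁻¹) t := of_k (k_comp (by
      rw [ui]; rw [ui] at ut; simpa only [ui] using ut : u⁻¹ * t * u⁻¹⁻¹ = t * (a ^ 2 * b ^ 2))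
      (by rw [k_mul qt (k_of (zd ▸ qab.pow_right 2)), mul_assoc, z2, mul_one]))
    have h2 : Commute (q * u⁻¹) (a ^ 2) := (of_k q1).mul_left (ua.pow_right 2).inv_left
    have h3 : Commute (q * u⁻¹) s := (of_k qs).mul_left us.inv_left
    have uab : Commute u (a * b) := ua.mul_right ub
    rcases ct' h.toUS h1 with h4 | ⟨l, hl, h4⟩
    · obtain ⟨i, hi⟩ := cH h.toUM0 h4 h2 h3
      have h5 : q = (a * b) ^ i * u := by rw [← hi]; group
      have h6 : e * q * e⁻¹ = q := by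
        rw [h5]; exact k_mul (k_of ((of_k eab).zpow_right i)) eu'
      have h7 : q * q = 1 := by rw [← mul_inv_cancel q, ← eq, h6]
      rw [h5, (uab.zpow_right i).mul_mul_mul_comm, u2, mul_one, ← zpow_add, c.mul_zpow] at h7
      obtain ⟨⟨m, hm⟩, -⟩ := h.ind _ _ h7
      have ab4' : (a * b) ^ (4 : ℤ) = 1 := by exact_mod_cast ab4
      rcases Int.even_or_odd' m with ⟨k, rfl | rfl⟩
      · left; rw [h5, show i = 4 * k by omega, zpow_mul, ab4', one_zpow, one_mul]
      · right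
        rw [h5, show i = 4 * k + 2 by omega, zpow_add, zpow_mul, ab4', one_zpow, one_mul, zd,
          (uab.pow_right 2).eq]
        norm_cast
    · exfalso
      have lt := tL h.toUS hl
      have h2' : Commute l (a ^ 2) := by
        rw [show l = q * u⁻¹ * t⁻¹ by rw [h4]; group]; exact h2.mul_left (ta.pow_left 2).symm.inv_left
      have h3' : Commute l s := by
        rw [show l = q * u⁻¹ * t⁻¹ by rw [h4]; group]; exact h3.mul_left ts.symm.inv_left
      obtain ⟨i, rfl⟩ := cH h.toUM0 hl h2' h3'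
      have h5 : q = (a * b) ^ i * t * u := by rw [← h4]; group
      have h6 : e * q * e⁻¹ = (a * b) ^ i * (t * a ^ 2) * u := by
        rw [h5]; exact k_mul (k_mul (k_of ((of_k eab).zpow_right i)) h.et) eu'
      have h7 : (a * b) ^ i * (t * a ^ 2) * u * ((a * b) ^ i * t * u) = 1 := by
        rw [← h6, eq, ← h5, inv_mul_cancel]
      have h8 : u * ((a * b) ^ i * t) * u⁻¹ = (a * b) ^ i * (t * (a ^ 2 * b ^ 2)) :=
        k_mul (k_of (uab.zpow_right i)) ut
      have h9 : (a * b) ^ i * (t * (a ^ 2 * (a * b) ^ i) * t⁻¹) * (a ^ 2 * b ^ 2) = 1 := by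
        rw [← h7, inv_of (tt h.toUS)]
        rw [ui] at h8
        calc _ = (a * b) ^ i * (t * a ^ 2) * ((a * b) ^ i * (t * (a ^ 2 * b ^ 2))) := by group
          _ = _ := by rw [← h8]; group
      rw [k_of ((ta.pow_left 2).mul_left lt).symm, c.mul_zpow] at h9
      have h10 : a ^ (i + 2 + i + 2) * b ^ (i + i + 2) = 1 := by
        have c1 := (c.zpow_zpow (2 + i) i).eq
        have c2 := (c.zpow_zpow 2 (i + i)).eq
        calc _ = a ^ i * a ^ (2 + i) * (a ^ (2 : ℤ) * b ^ (i + i)) * b ^ 2 := by group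
          _ = a ^ i * (a ^ (2 + i) * b ^ i) * b ^ i * (a ^ 2 * b ^ 2) := by rw [c2]; group
          _ = 1 := by rw [c1, ← h9]; group
      obtain ⟨h11, h12⟩ := h.ind _ _ h10
      omega
  have qu : ∀ {n : G}, Commute n u → Commute n (a * b) → Commute n q := fun h1 h2 => by
    rcases qc with h3 | h3 <;> rw [h3]
    · exact h1
    · exact h1.mul_right (zd ▸ h2.pow_right 2)
  have yq := k_of (qu yu h.yc)
  have ecq := qu eu (of_k eab)
  have fcq := qu (of_k fu) (of_k fab)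
  have q2 : q * q = 1 := by rw [← mul_inv_cancel q, ← eq, k_of ecq]
  have sw : ∀ {m n : G}, m * m = 1 → n * n = 1 → q = m * n * (m * n) → n * m = q * (m * n) ∧
      m * n = q * (n * m) := fun {m n} h1 h2 h3 => by
    have h4 : m * n = q * (n * m) := by
      rw [h3]
      calc m * n = m * n * (m * m) := by rw [h1, mul_one]
        _ = m * n * (m * (n * n) * m) := by rw [h2, mul_one]
        _ = _ := by group
    exact ⟨by rw [h4, ← mul_assoc, q2, one_mul], h4⟩
  have qd2 : q = f * g * (f * g) := by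
    rw [← yq, qd]; exact k_mul (k_mul fd.symm gd.symm) (k_mul fd.symm gd.symm)
  have qd3 : q = g * e * (g * e) := by
    rw [← yq, qd2]; exact k_mul (k_mul gd.symm ed) (k_mul gd.symm ed)
  have fe := (sw h.e2 f2 qd).1
  have gf := (sw f2 g2 qd2).1
  have ge := (sw g2 h.e2 qd3).2
  have qq : ∀ p : G, q * (q * p) = p := fun p => by rw [← mul_assoc, q2, one_mul]
  have ee : ∀ p : G, e * (e * p) = p := fun p => by rw [← mul_assoc, h.e2, one_mul]
  have ff : ∀ p : G, f * (f * p) = p := fun p => by rw [← mul_assoc, f2, one_mul]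
  have eq' : ∀ p : G, e * (q * p) = q * (e * p) := fun p => ecq.left_comm p
  have fq' : ∀ p : G, f * (q * p) = q * (f * p) := fun p => fcq.left_comm p
  have fe' : ∀ p : G, f * (e * p) = q * (e * (f * p)) := fun p => by
    rw [← mul_assoc, fe]; simp only [mul_assoc]
  have gf' : ∀ p : G, g * (f * p) = q * (f * (g * p)) := fun p => by
    rw [← mul_assoc, gf]; simp only [mul_assoc]
  have ge' : ∀ p : G, g * (e * p) = q * (e * (g * p)) := fun p => by
    rw [← mul_assoc, ge]; simp only [mul_assoc]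
  have w2 : (e * f * g) ^ 2 = q := by
    simp only [pow_two, mul_assoc, ge', gf', fe', eq', qq, g2, f2, h.e2, mul_one]
  have af : a * f * a⁻¹ = g := by
    have h1 : a * s * a⁻¹ = s * a⁻¹ * b := by
      rw [← h.sa, si]
      calc a * s * a⁻¹ = (s * s) * a * s * a⁻¹ := by rw [h.s2, one_mul]
        _ = s * ((s * a * s⁻¹) * a⁻¹) := by rw [si]; group
        _ = _ := by rw [h.sa, ← c.inv_left.eq, ← h.sa, si]; group
    have h2 : Commute (y * (a * y)) (a ^ 2) := of_k (k_comp (k_comp h.y1 h1) y3)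
    have h3 : Commute (y * (a * y)) (a ^ 2 * b ^ 2) :=
      yz.mul_left ((((Commute.refl a).pow_right 2).mul_right (c.pow_right 2)).mul_left yz)
    have h4 : Commute (y * (a * y)) (b ^ 2) := by
      rw [show b ^ 2 = (a ^ 2)⁻¹ * (a ^ 2 * b ^ 2) by group]; exact h2.inv_right.mul_right h3
    obtain ⟨i, j, h5⟩ := pair_nf h.ab (h.cV _ (mul_mem h.yL (mul_mem h.aL h.yL)) h2 h4)
    have h6 : Commute (y * (a * y)) e := h5 ▸ ((h.ea.zpow_right i).mul_right (h.eb.zpow_right j)).symm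
    have h7 : y * (a * f * a⁻¹) * y⁻¹ = y * g * y⁻¹ := by rw [ed, ← k_of h6, fd]; group
    exact mul_left_cancel (mul_right_cancel h7)
  have ag : a * g * a⁻¹ = f * u := by
    have h1 : a ^ 2 * f * (a ^ 2)⁻¹ = a * g * a⁻¹ := by rw [← af, pow_two]; group
    rw [← h1, inv_of a22, mul_assoc, mul_inv_eq_iff_eq_mul.1 f1, ← mul_assoc, ← mul_assoc, a22,
      one_mul, (of_k fu).eq]
  refine ⟨u, f, e * f * g, { h with
    ud := ud, f2 := f2, ft := ft, fs := of_k fs, fab := of_k fab, fu := of_k fu, fa2 := f1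
    fe := ?_, fa := ?_, fw := ?_, we := ?_, ws := ?_, wab := of_k (k_comp gab nab), wa2 := ?_
    wt := ?_, wc := w2 ▸ qc, wa := ?_ }⟩
  · rw [w2, fi, fe, ecq.eq]; simp only [mul_assoc, f2, mul_one]
  · rw [← af, fi]; simp only [mul_assoc, ee, inv_mul_cancel, mul_one]
  · simp only [Commute, SemiconjBy, mul_assoc, gf, fe', eq', fq', ff]
  · simp only [Commute, SemiconjBy, mul_assoc, ge, fe', fq', qq, ee]
  · exact of_k (by rw [k_comp gs (k_mul ns nu), uu])
  · exact of_k (by rw [k_comp g1 (k_mul n1 nu), uu])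
  · rw [k_comp gt (k_mul nt (k_comp f3 (k_mul e3 eu'))), uu]
    calc t * a ^ 2 * (s * u) * (s * a⁻¹ * b) = t * a ^ 2 * s * (u * (s * a⁻¹ * b)) := by group
      _ = t * a ^ 2 * (s * s) * a⁻¹ * b * u := by rw [up3.eq]; group
      _ = _ := by rw [h.s2]; group
  · rw [w2, k_mul (k_mul (k_of h.ea.symm) af) ag]
    have gq : g * q = q * g := by
      have := k_tr y (k_of fcq) yq yq
      rw [← gd] at this; exact (of_k this).eq
    simp only [mul_assoc, gf', eq']
    rw [← mul_assoc g, gq]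
    simp only [mul_assoc, fq', eq']

end H16.DpUW
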