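import Cfsg.Agent.H57.Carm
import Mathlib.GroupTheory.SpecificGroups.Alternating.Simple
import Mathlib.Dynamics.PeriodicPts.Lemmas

/-! Permutations of nine points for §5 of `HN3L.md`. -/

set_option autoImplicit false
open Equiv Equiv.Perm

namespace H16.HN3A

abbrev P9 := Perm (Fin 9)
abbrev A9 := alternatingGroup (Fin 9)
def m9 (σ : P9) (h : sign σ = 1 := by decide +kernel) : A9 := ⟨σ, mem_alternatingGroup.2 h⟩
def E2 : A9 := m9 (swap 3 7 * swap 3 5)
def E3 : A9 := m9 (swap 4 8 * swap 4 6)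
def E4 : A9 := m9 (swap 0 2 * swap 0 1)
def a9 : A9 := m9 (swap 5 7 * swap 1 2)
def w9 : A9 := m9 (swap 3 4 * swap 5 8 * swap 5 7 * swap 5 6)
def U (j : Fin 9) : A9 :=
  if h : j ≠ 1 ∧ j ≠ 2 then ⟨H57.cyc 1 2 j, mem_alternatingGroup.2 (H57.sign_cyc h)⟩ else 1

theorem three {p r : P9} (p3 : p ^ 3 = 1) (p1 : p ≠ 1) (c : Commute p r) (r4 : r ^ 4 = 1)
    (r2 : r ^ 2 ≠ 1) : IsThreeCycle p := by
  have fx : ∀ x, (r ^ 2) x ≠ x → p x = x := fun x hx => by
    have e : ∀ n : ℕ, (p * r)^[n] x = (p ^ n * r ^ n) x := fun n => by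
      rw [← c.mul_pow]; exact congrFun (Equiv.Perm.iterate_eq_pow _ n) x
    have h12 : Function.IsPeriodicPt (p * r) 12 x := by
      rw [Function.IsPeriodicPt, Function.IsFixedPt, e, show 12 = 3 * 4 from rfl, pow_mul, p3,
        mul_comm 3, pow_mul, r4]; simp
    have h6 : ¬ Function.IsPeriodicPt (p * r) 6 x := by
      rw [Function.IsPeriodicPt, Function.IsFixedPt, e, show 6 = 3 * 2 from rfl, pow_mul, p3,
        show 3 * 2 = 4 + 2 from rfl, pow_add, r4]; simpa using hx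
    rw [Function.isPeriodicPt_iff_minimalPeriod_dvd] at h12 h6
    have h9 := Function.minimalPeriod_le_card (f := ⇑(p * r)) (x := x)
    have h4 : Function.IsPeriodicPt (p * r) 4 x := by
      rw [Function.isPeriodicPt_iff_minimalPeriod_dvd]
      rw [Fintype.card_fin] at h9
      generalize Function.minimalPeriod (⇑(p * r)) x = m at *
      interval_cases m <;> omega
    rw [Function.IsPeriodicPt, Function.IsFixedPt, e, r4, show 4 = 3 + 1 from rfl, pow_add, p3] at h4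
    simpa using h4
  obtain ⟨x, hx⟩ : ∃ x, (r ^ 2) x ≠ x := by
    by_contra h
    exact r2 (Equiv.ext fun x => by_contra fun e => h ⟨x, e⟩)
  have r4' : ∀ y, r (r (r (r y))) = y := fun y => by
    simpa [pow_succ] using congrArg (· y) r4
  simp only [pow_two, mul_apply] at fx hx
  have o : orderOf p = 3 := orderOf_eq_prime p3 p1
  obtain ⟨n, hn⟩ := cycleType_prime_order (σ := p) (o ▸ Nat.prime_three)
  have h1 := sum_cycleType p
  have n1 : r x ≠ x := fun e => hx (by rw [e, e])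
  have h2 : ({x, r x, r (r x), r (r (r x))} : Finset (Fin 9)) ⊆ p.supportᶜ := fun y hy => by
    simp only [Finset.mem_insert, Finset.mem_singleton] at hy
    rw [Finset.mem_compl, notMem_support]
    rcases hy with rfl | rfl | rfl | rfl
    · exact fx _ hx
    · exact fx _ (r.injective.ne hx)
    · exact fx _ (r.injective.ne (r.injective.ne hx))
    · exact fx _ (r.injective.ne (r.injective.ne (r.injective.ne hx)))
  have h3 := Finset.card_le_card h2
  have n3 : r (r (r x)) ≠ x := fun e => n1 (by have := r4' x; rwa [e] at this)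
  rw [Finset.card_compl, Finset.card_insert_of_notMem (by simp [n1.symm, hx.symm, n3.symm]),
    Finset.card_insert_of_notMem (by simp [n1.symm, hx.symm]),
    Finset.card_insert_of_notMem (by simp [n1.symm]), Finset.card_singleton, ← h1, hn, o] at h3
  simp only [Multiset.sum_replicate, smul_eq_mul, Fintype.card_fin] at h3
  obtain rfl : n = 0 := by omega
  rw [IsThreeCycle, hn, o]; rfl

theorem cube {p : P9} (h : IsThreeCycle p) (x : Fin 9) : p (p (p x)) = x := by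
  have : p ^ 3 = 1 := h.orderOf ▸ pow_orderOf_eq_one p
  simpa [pow_succ] using congrArg (· x) this

theorem orb {p : P9} (h : IsThreeCycle p) {x y : Fin 9} (hx : p x ≠ x) (hy : p y ≠ y) :
    y = x ∨ y = p x ∨ y = p (p x) := by
  obtain ⟨i, rfl⟩ := h.isCycle.exists_pow_eq hx hy
  clear hy
  induction i with
  | zero => simp
  | succ i ih =>
    rw [pow_succ', mul_apply]
    rcases ih with e | e | e <;> simp [e, cube h]

theorem fixL {p c : P9} (h : IsThreeCycle p) (e : Commute c p) (c4 : c ^ 4 = 1) {x : Fin 9}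
    (hx : p x ≠ x) : c x = x := by
  have e' : ∀ y, c (p y) = p (c y) := fun y => congrArg (· y) e.eq
  have r : c (c (c (c x))) = x := by simpa [pow_succ] using congrArg (· x) c4
  rcases orb h hx (y := c x) (by rw [← e']; exact c.injective.ne hx) with k | k | k
  · exact k
  · simp only [k, e', cube h] at r; exact absurd r hx
  · simp only [k, e', cube h] at r; exact k.trans r

theorem inv_ap {p c : P9} (h : IsThreeCycle p) (e : c * p * c⁻¹ = p⁻¹) (y : Fin 9) :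
    c (p y) = p (p (c y)) := by
  have : c (p y) = p⁻¹ (c y) := by rw [← e]; simp
  rw [this, Perm.inv_eq_iff_eq, cube h]

theorem fixE {p c : P9} (h : IsThreeCycle p) (e : c * p * c⁻¹ = p⁻¹) : ∃ x, p x ≠ x ∧ c x = x := by
  obtain ⟨x, hx, -⟩ := h.isCycle
  have e' := inv_ap h e
  rcases orb h hx (y := c x) (fun k => hx (c.injective (by rw [e', k, k]))) with k | k | k
  · exact ⟨x, hx, k⟩
  · exact ⟨p (p x), p.injective.ne (p.injective.ne hx), by simp only [e', k, cube h]⟩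
  · exact ⟨p x, p.injective.ne hx, by simp only [e', k, cube h]⟩

theorem disj {p q c : P9} (hp : IsThreeCycle p) (hq : IsThreeCycle q) (pq : Commute p q)
    (cq : Commute c q) (c4 : c ^ 4 = 1) (e : c * p * c⁻¹ = p⁻¹) (x : Fin 9) :
    p x = x ∨ q x = x := by
  by_contra! h
  have h1 := fixL hq cq c4 h.2
  have h2 := fixL hq cq c4 (x := p x)
    (by rw [← mul_apply, ← pq.eq, mul_apply]; exact p.injective.ne h.2)
  rw [inv_ap hp e, h1] at h2
  exact h.1 (p.injective h2)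

theorem nf {p q a w : P9} (hp : IsThreeCycle p) (hq : IsThreeCycle q) (pq : Commute p q)
    (p3 : Commute p (w * p * w⁻¹)) (wq : Commute w q) (a4 : a ^ 4 = 1) (w4 : w ^ 4 = 1)
    (ap : a * p * a⁻¹ = p⁻¹) (aq : a * q * a⁻¹ = q⁻¹) (a3 : Commute a (w * p * w⁻¹))
    (wp : w * w * p * (w * w)⁻¹ = p⁻¹) (aw : (a * (w * w)) ^ 4 = 1) :
    ∃ k : P9, k * E2.1 * k⁻¹ = p ∧ k * E4.1 * k⁻¹ = q ∧ k * a9.1 * k⁻¹ = a ∧ k * w9.1 * k⁻¹ = w := by
  have hr : IsThreeCycle (w * p * w⁻¹) := by rw [IsThreeCycle, cycleType_conj]; exact hp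
  have rw' : ∀ y, (w * p * w⁻¹) (w y) = w (p y) := fun y => by simp
  have qr : Commute q (w * p * w⁻¹) := by
    have := pq.symm.conj w
    rwa [wq.eq, mul_inv_cancel_right] at this
  have d1 := disj hp hq pq (wq.mul_left wq)
    (by rw [← pow_two, ← pow_mul, mul_comm, pow_mul, w4, one_pow]) wp
  have d2 := disj hp hr p3 a3 a4 ap
  have d3 := disj hq hr qr a3 a4 aq
  obtain ⟨x, x1, x2⟩ := fixE hq aq
  obtain ⟨y, y1, y2⟩ := fixE hp ap
  have cp : Commute (a * (w * w)) p := by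
    have : a * (w * w) * p * (a * (w * w))⁻¹ = p := by
      rw [show a * (w * w) * p * (a * (w * w))⁻¹ = a * (w * w * p * (w * w)⁻¹) * a⁻¹ by group, wp,
        ← conj_inv, ap, inv_inv]
    exact mul_inv_eq_iff_eq_mul.1 this
  have wy : w (w y) = y := a.injective ((fixL hp cp aw y1).trans y2.symm)
  have mq : ∀ u ∈ [x, q x, q (q x)], q u ≠ u := by simpa using x1
  have mp : ∀ u ∈ [y, p y, p (p y)], p u ≠ u := by simpa using y1
  have mr : ∀ u ∈ [w y, w (p y), w (p (p y))], (w * p * w⁻¹) u ≠ u := by simpa using y1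
  have f1 := fun u hu => (d1 u).resolve_right (mq u hu)
  have f2 := fun u hu => (d1 u).resolve_left (mp u hu)
  have f3 := fun u hu => (d2 u).resolve_right (mr u hu)
  have f4 := fun u hu => (d3 u).resolve_right (mr u hu)
  have f5 := fun u hu => fixL hr a3 a4 (mr u hu)
  have f6 := fun u hu => fixL hq wq w4 (mq u hu)
  simp only [List.forall_mem_cons, List.not_mem_nil, false_imp_iff, implies_true, and_true]
    at f1 f2 f3 f4 f5 f6
  have g1 := inv_ap hq aq
  have g2 := inv_ap hp ap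
  have g3 : ∀ u, w (w (p u)) = p (p (w (w u))) := inv_ap hp wp
  let k : Fin 9 → Fin 9 := ![x, q x, q (q x), y, w y, p y, w (p y), p (p y), w (p (p y))]
  have tr : ∀ (E : P9) (l : Fin 9 → Fin 9) (s : P9), (∀ i, E i = l i) → (∀ i, k (l i) = s (k i)) →
      ∀ i, k (E i) = s (k i) := fun E l s h1 h2 i => h1 i ▸ h2 i
  have i2 := tr E2.1 ![0, 1, 2, 5, 4, 7, 6, 3, 8] p (by decide +kernel) fun i => by
    fin_cases i <;> simp [k, f1, f3, cube hp]
  have i4 := tr E4.1 ![1, 2, 0, 3, 4, 5, 6, 7, 8] q (by decide +kernel) fun i => by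
    fin_cases i <;> simp [k, f2, f4, cube hq]
  have ia := tr a9.1 ![0, 2, 1, 3, 4, 7, 6, 5, 8] a (by decide +kernel) fun i => by
    fin_cases i <;> simp [k, f5, g1, g2, x2, y2, cube hq, cube hp]
  have iw := tr w9.1 ![0, 1, 2, 4, 3, 6, 7, 8, 5] w (by decide +kernel) fun i => by
    fin_cases i <;> simp [k, f6, g3, wy, cube hp]
  have i3 : ∀ i, k (E3.1 i) = (w * p * w⁻¹) (k i) := fun i => by
    obtain ⟨i, rfl⟩ := w9.1.surjective i
    rw [iw, rw', ← i2, ← iw]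
    exact congrArg k (by revert i; decide +kernel)
  have inj : Function.Injective k := fun i j e => by
    have key : ∀ (E s : P9), (∀ i, k (E i) = s (k i)) → (∀ i, E i ≠ i → s (k i) ≠ k i) →
        ¬ (E i ≠ i ∧ (E j = j ∨ E i = j) ∨ E j ≠ j ∧ E j = i) := fun E s h1 h2 => by
      rintro (⟨b, c | c⟩ | ⟨b, c⟩)
      · exact h2 i b (by rw [e, ← h1, c])
      · exact h2 i b (by rw [← h1, c, e])
      · exact h2 j b (by rw [← h1, c, e])
    have k2 := key _ _ i2 fun i hi => mp _ (by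
      have : i = 3 ∨ i = 5 ∨ i = 7 := by revert i; decide +kernel
      rcases this with rfl | rfl | rfl <;> simp [k])
    have k3 := key _ _ i3 fun i hi => mr _ (by
      have : i = 4 ∨ i = 6 ∨ i = 8 := by revert i; decide +kernel
      rcases this with rfl | rfl | rfl <;> simp [k])
    have k4 := key _ _ i4 fun i hi => mq _ (by
      have : i = 0 ∨ i = 1 ∨ i = 2 := by revert i; decide +kernel
      rcases this with rfl | rfl | rfl <;> simp [k])
    clear e key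
    revert i j; decide +kernel
  have fin : ∀ (E s : P9), (∀ i, k (E i) = s (k i)) →
      Equiv.ofBijective k (Finite.injective_iff_bijective.1 inj) * E *
        (Equiv.ofBijective k (Finite.injective_iff_bijective.1 inj))⁻¹ = s := fun E s h =>
    mul_inv_eq_iff_eq_mul.2 (Equiv.ext h)
  exact ⟨_, fin _ _ i2, fin _ _ i4, fin _ _ ia, fin _ _ iw⟩

def Cd (f : Fin 9 → Fin 9) : Prop :=
  (∀ i, f (f (f i)) = i) → (∀ i, f (E4.1 (f (E4.1 i))) = i) → (∀ i, f (a9.1 (f (a9.1 i))) = i) →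
    (∀ i, f (E2.1 i) = E2.1 (f i)) ∨ ∀ i, f i = (U 3).1 i
instance (f : Fin 9 → Fin 9) : Decidable (Cd f) := by unfold Cd; infer_instance

set_option synthInstance.maxSize 2048 in
theorem fin0 : ∀ b0 : Fin 9, b0 ≠ 4 ∧ b0 ≠ 6 ∧ b0 ≠ 8 → ∀ b1 : Fin 9, b1 ≠ 4 ∧ b1 ≠ 6 ∧ b1 ≠ 8 ∧ b1 ≠ b0 →
    ∀ b2 : Fin 9, b2 ≠ 4 ∧ b2 ≠ 6 ∧ b2 ≠ 8 ∧ b2 ≠ b0 ∧ b2 ≠ b1 →
    ∀ b3 : Fin 9, b3 ≠ 4 ∧ b3 ≠ 6 ∧ b3 ≠ 8 ∧ b3 ≠ b0 ∧ b3 ≠ b1 ∧ b3 ≠ b2 →
    ∀ b5 : Fin 9, b5 ≠ 4 ∧ b5 ≠ 6 ∧ b5 ≠ 8 ∧ b5 ≠ b0 ∧ b5 ≠ b1 ∧ b5 ≠ b2 ∧ b5 ≠ b3 →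
    ∀ b7 : Fin 9, b7 ≠ 4 ∧ b7 ≠ 6 ∧ b7 ≠ 8 ∧ b7 ≠ b0 ∧ b7 ≠ b1 ∧ b7 ≠ b2 ∧ b7 ≠ b3 ∧ b7 ≠ b5 →
    Cd ![b0, b1, b2, b3, 4, b5, 6, b7, 8] := by decide +kernel

theorem fin9 {π : A9} (h1 : Commute π E3) (h2 : π ^ 3 = 1) (h3 : a9 * π * a9⁻¹ = π⁻¹)
    (h4 : (π * E4) ^ 2 = 1) (h5 : ¬ Commute π E2) : π = U 3 := by
  have g1 : ∀ i, π.1 (E3.1 i) = E3.1 (π.1 i) := fun i => congrArg (·.1 i) h1.eq
  have g2 : ∀ i, π.1 (π.1 (π.1 i)) = i := fun i => by
    simpa [pow_succ] using congrArg (·.1 i) h2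
  have g3 : ∀ i, π.1 (a9.1 (π.1 (a9.1 i))) = i := fun i => by
    rw [show a9⁻¹ = a9 by decide +kernel, eq_inv_iff_mul_eq_one, mul_eq_one_comm] at h3
    exact congrArg (·.1 i) h3
  have g4 : ∀ i, π.1 (E4.1 (π.1 (E4.1 i))) = i := fun i => by
    simpa [pow_succ] using congrArg (·.1 i) h4
  have p4 : π.1 4 = 4 := by
    have a := g1 4
    have b := g3 4
    rw [show a9.1 4 = 4 by decide +kernel] at b
    have c : a9.1 (π.1 4) = π.1 4 :=
      (by decide +kernel : ∀ j, E3.1 j ≠ j → a9.1 j = j) _ (a ▸ π.1.injective.ne (by decide +kernel))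
    rw [c] at b
    simpa only [b] using g2 4
  have p6 : π.1 6 = 6 := by simpa only [p4, show E3.1 4 = 6 by decide +kernel] using g1 4
  have p8 : π.1 8 = 8 := by simpa only [p6, show E3.1 6 = 8 by decide +kernel] using g1 6
  have e : ⇑π.1 = ![π.1 0, π.1 1, π.1 2, π.1 3, 4, π.1 5, 6, π.1 7, 8] := by
    ext i; fin_cases i <;> simp [p4, p6, p8]
  have n : ∀ i j, i ≠ j → π.1 i ≠ π.1 j := fun i j h => π.1.injective.ne h
  have n4 : ∀ i, i ≠ 4 → π.1 i ≠ 4 := fun i h => by simpa only [p4] using n i 4 h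
  have n6 : ∀ i, i ≠ 6 → π.1 i ≠ 6 := fun i h => by simpa only [p6] using n i 6 h
  have n8 : ∀ i, i ≠ 8 → π.1 i ≠ 8 := fun i h => by simpa only [p8] using n i 8 h
  have := fin0 (π.1 0) (by simp [n4, n6, n8]) (π.1 1) (by simp [n4, n6, n8]) (π.1 2)
    (by simp [n4, n6, n8]) (π.1 3) (by simp [n4, n6, n8]) (π.1 5) (by simp [n4, n6, n8]) (π.1 7)
    (by simp [n4, n6, n8])
  rw [← e] at this
  rcases this g2 g4 g3 with h | h
  · exact absurd (Subtype.ext (Equiv.ext h)) h5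
  · exact Subtype.ext (Equiv.ext h)

end H16.HN3A
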