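import Cfsg.Agent.H52.SimXSSpec

set_option autoImplicit false
set_option maxHeartbeats 200000

namespace H16.SimCY

open Subgroup Cfsg Matrix H0.Sim H52.XS

theorem two_eq {K : Type} [Field K] [Fintype K] (h : Fintype.card K = 4) : (2 : K) = 0 := by
  have e := FiniteField.cast_card_eq_zero K
  rw [h] at e
  have : (2 : K) ^ 2 = 0 := by
    rw [← e]
    norm_num
  exact pow_eq_zero_iff (two_ne_zero) |>.1 this

/-- The swap of the first two coordinates. -/
def W (K : Type) [Field K] : Mt 3 K := !![0, 1, 0; 1, 0, 0; 0, 0, 1]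

theorem W_sq (K : Type) [Field K] : W K * W K = 1 := by
  ext i j
  fin_cases i <;> fin_cases j <;> simp [W, Matrix.mul_apply, Fin.sum_univ_three]

theorem ad_W (K : Type) [Field K] : ad 2 (W K) = W K := by
  ext i j
  fin_cases i <;> fin_cases j <;> simp [W, ad]

theorem cube {K : Type} [Field K] [Fintype K] (h : Fintype.card K = 4) (X : Mt 3 K)
    (hX : W K * X = X * W K) (hc : ∀ Y : Mt 3 K, Y * X ^ 3 = X ^ 3 * Y) : X ^ 3 = 0 ∨ X ^ 3 = 1 := by
  obtain ⟨c, hc'⟩ : X ^ 3 ∈ Set.range (Matrix.scalar (Fin 3)) :=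
    Matrix.mem_range_scalar_iff_commute_single'.2 fun i j => hc _
  have h2 := two_eq h
  have e1 : X 1 0 = X 0 1 := by
    simpa [W, Matrix.mul_apply, Fin.sum_univ_three] using congrFun (congrFun hX 0) 0
  have e2 : X 1 1 = X 0 0 := by
    simpa [W, Matrix.mul_apply, Fin.sum_univ_three] using congrFun (congrFun hX 0) 1
  have e3 : X 2 0 = X 2 1 := by
    simpa [W, Matrix.mul_apply, Fin.sum_univ_three] using congrFun (congrFun hX 2) 0
  have hv : X *ᵥ ![1, 1, 0] = (X 0 0 + X 0 1) • (![1, 1, 0] : Fin 3 → K) := by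
    ext i
    fin_cases i
    · simp [Matrix.mulVec, dotProduct, Fin.sum_univ_three]
    · simp [Matrix.mulVec, dotProduct, Fin.sum_univ_three, e1, e2, add_comm]
    · simp only [Matrix.mulVec, dotProduct, Fin.sum_univ_three]
      simp
      linear_combination e3 + X 2 1 * h2
  have h3 : (X ^ 3) *ᵥ ![1, 1, 0] = (X 0 0 + X 0 1) ^ 3 • (![1, 1, 0] : Fin 3 → K) := by
    rw [pow_three, ← Matrix.mulVec_mulVec, ← Matrix.mulVec_mulVec, hv, Matrix.mulVec_smul, hv,
      Matrix.mulVec_smul, Matrix.mulVec_smul, hv, smul_smul, smul_smul, pow_three, mul_assoc]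
  have h4 : c = (X 0 0 + X 0 1) ^ 3 := by
    rw [← hc'] at h3
    simpa [Matrix.mulVec, dotProduct, Fin.sum_univ_three, Matrix.scalar_apply] using congrFun h3 0
  by_cases l0 : X 0 0 + X 0 1 = 0
  · left
    rw [← hc', h4, l0]
    simp
  · right
    have := FiniteField.pow_card_sub_one_eq_one _ l0
    rw [h] at this
    rw [← hc', h4, this]
    simp

theorem job : JobCY := by
  intro hAD n F _ _ R hF hR ⟨K, _, _, φ, hK, hφ⟩
  rw [hF] at hK
  obtain ⟨-, -, -, -, -, -, hGU⟩ := hAD n F 2 (by rw [hF]; norm_num)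
  set T : R := φ.symm (W K) with hT
  have φT : φ T = W K := φ.apply_symm_apply _
  have TT : T * T = 1 := φ.injective (by rw [map_mul, φT, W_sq, map_one])
  have TT' : (T : Mt n F) * (T : Mt n F) = 1 := by
    have := congrArg (fun a : R => (a : Mt n F)) TT
    simpa using this
  have adT : ad 2 (T : Mt n F) = T := by
    have e : (⟨ad 2 (T : Mt n F), hR _ T.2⟩ : R) = T :=
      φ.injective (by rw [hφ rfl T _ rfl, φT, ad_W])
    exact congrArg (fun a : R => (a : Mt n F)) e
  let t : GL (Fin n) F := ⟨T, T, TT', TT'⟩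
  have tG : t ∈ Gam n F true 2 := by
    show t ∈ GU n F 2
    rw [hGU]
    show ad 2 (T : Mt n F) * (T : Mt n F) = 1
    rw [adT, TT']
  refine ⟨t, ⟨tG, (Submonoid.mem_units_iff _ _).2 ⟨T.2, T.2⟩⟩, ⟨tG, ?_⟩, Units.ext TT', ?_⟩
  · refine MonoidHom.mem_ker.2 (Units.ext ?_)
    show (T : Mt n F).det = 1
    have d : (T : Mt n F).det * (T : Mt n F).det = 1 := by rw [← Matrix.det_mul, TT', Matrix.det_one]
    have h2 := two_eq hF
    have : ((T : Mt n F).det - 1) ^ 2 = 0 := by
      linear_combination d + (1 - (T : Mt n F).det) * h2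
    exact sub_eq_zero.1 (pow_eq_zero_iff two_ne_zero |>.1 this)
  · intro x hx hc ⟨c, hs⟩
    let a : R := ⟨x, hx⟩
    have a3 : ((a ^ 3 : R) : Mt n F) = ((x ^ 3 : GL (Fin n) F) : Mt n F) := by
      simp [a]
    have c1 : T * a = a * T := Subtype.ext (congrArg (fun g : GL (Fin n) F => (g : Mt n F)) hc)
    have c2 : ∀ b : R, b * a ^ 3 = a ^ 3 * b := fun b => Subtype.ext (by
      rw [Subalgebra.coe_mul, Subalgebra.coe_mul, a3, hs]
      exact ((Matrix.scalar_commute c (fun r => Commute.all c r) (b : Mt n F)).eq).symm)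
    rcases cube hK (φ a) (by rw [← φT, ← map_mul, c1, map_mul]) (fun Y => by
      obtain ⟨b, rfl⟩ := φ.surjective Y
      rw [← map_pow, ← map_mul, c2, map_mul]) with h | h
    · have e : a ^ 3 = 0 := φ.injective (by rw [map_pow, h, map_zero])
      have e' : ((x ^ 3 : GL (Fin n) F) : Mt n F) = 0 := by rw [← a3, e]; rfl
      refine Units.ext ?_
      rw [Units.val_one, ← Units.inv_mul (x ^ 3), e', mul_zero]
    · have e : a ^ 3 = 1 := φ.injective (by rw [map_pow, h, map_one])
      refine Units.ext ?_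
      rw [← a3, e]
      rfl

end H16.SimCY
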